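import Cfsg.Agent.H776.P4.Stmts
import Cfsg.Agent.H681.PU.Syl

/-!
# S5210: (P4-SYL) the Sylow `p`-subgroups of `PSU₄(pⁿ)` are isomorphic to `PG K` (helper587)
-/

set_option autoImplicit false

namespace Cfsg.Agent.H587.P4

open Matrix Cfsg.Agent.H776.P4 Cfsg.Agent.LieClassical.HermBasic Cfsg.Agent.H681.PU
open Cfsg.Agent.H756.PU (HypK)

universe u

section mat

variable {K : Type u} [Field K]

/-- the Gram matrix -/
def EJ (ε : K) : Matrix (Fin 4) (Fin 4) K := !![0, 0, ε, 0; 0, 0, 0, ε; -ε, 0, 0, 0; 0, -ε, 0, 0]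

/-- its inverse -/
def EI (ε : K) : Matrix (Fin 4) (Fin 4) K := !![0, 0, -ε⁻¹, 0; 0, 0, 0, -ε⁻¹; ε⁻¹, 0, 0, 0; 0, ε⁻¹, 0, 0]

theorem EI_mul {ε : K} (hε : ε ≠ 0) : EI ε * EJ ε = 1 := by
  ext i j
  fin_cases i <;> fin_cases j <;> simp [EI, EJ, Matrix.mul_apply, Fin.sum_univ_four, hε]

/-- A matrix taking the standard form to `EJ ε`. -/
theorem exists_T {σ : K →+* K} (hσ : ∀ x, σ (σ x) = x) {ν c ε : K} (hν : ν * σ ν = -1) (hc : σ c ≠ c)
    (hε : ε ≠ 0) (hεσ : σ ε = -ε) :
    ∃ T T' : Matrix (Fin 4) (Fin 4) K, T * T' = 1 ∧ Tᵀ * T.map σ = EJ ε := by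
  have hc0 : c ≠ 0 := by rintro rfl; exact hc (map_zero σ)
  have hσc0 : σ c ≠ 0 := (map_ne_zero σ).mpr hc0
  obtain ⟨w, hw, hw1⟩ : ∃ w : K, w * σ w = 1 ∧ 1 - w ≠ 0 := by
    refine ⟨c / σ c, ?_, ?_⟩
    · rw [map_div₀, hσ]; field_simp
    · intro h
      apply hc
      have h2 : c / σ c = 1 := (sub_eq_zero.1 h).symm
      rw [div_eq_one_iff_eq hσc0] at h2
      exact h2.symm
  set a := (1 - w)⁻¹ with ha
  have haw : a - w * a = 1 := by
    rw [ha]; field_simp
  have haw' : σ a - σ w * σ a = 1 := by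
    rw [← map_mul, ← map_sub, haw, map_one]
  let T : Matrix (Fin 4) (Fin 4) K :=
    !![1, 0, -ε * a, 0; ν, 0, -ε * (ν * w * a), 0; 0, 1, 0, -ε * a; 0, ν, 0, -ε * (ν * w * a)]
  have hT : Tᵀ * T.map σ = EJ ε := by
    ext i j
    fin_cases i <;> fin_cases j <;>
      simp [T, EJ, Matrix.mul_apply, Fin.sum_univ_four, Matrix.transpose_apply, hεσ]
    all_goals first
      | linear_combination hν
      | linear_combination (-ε) * haw - (ε * w * a) * hν
      | linear_combination ε * haw' + (ε * σ w * σ a) * hν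
      | linear_combination (-ε * ε * a * σ a * w * σ w) * hν + ε * ε * a * σ a * hw
  refine ⟨T, (EI ε * Tᵀ).map σ, ?_, hT⟩
  have h1 : (EI ε * Tᵀ) * T.map σ = 1 := by
    rw [Matrix.mul_assoc, hT, EI_mul hε]
  have h3 : (T.map σ).map σ = T := by
    ext i j
    rw [Matrix.map_apply, Matrix.map_apply, hσ]
  have h2 : (EI ε * Tᵀ).map σ * T = 1 := by
    generalize EI ε * Tᵀ = A at h1 ⊢
    rw [← h3, ← Matrix.map_mul]
    have : (A * T.map σ).map σ = 1 := by
      rw [h1]; exact Matrix.map_one σ (map_zero σ) (map_one σ)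
    exact this
  exact mul_eq_one_comm.mp h2

variable [StarRing K]

/-- the matrix of an element of `PG K` -/
def pmat (x : PG K) : Matrix (Fin 4) (Fin 4) K :=
  !![1, x.r, x.a - x.b * star x.r, x.b;
     0, 1, star x.b - x.c * star x.r, x.c;
     0, 0, 1, 0;
     0, 0, -star x.r, 1]

theorem det_pmat (x : PG K) : (pmat x).det = 1 := by
  simp [pmat, Matrix.det_succ_column_zero, Fin.sum_univ_succ, Fin.succAbove]

set_option maxHeartbeats 4000000 in
theorem pmat_mul (x y : PG K) : pmat x * pmat y = pmat (x * y) := by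
  have h2 := y.hc
  ext i j
  fin_cases i <;> fin_cases j <;>
    simp [pmat, Matrix.mul_apply, Fin.sum_univ_four, PG.mul_a, PG.mul_b]
  all_goals first | ring1 | linear_combination (-(star x.r)) * h2 | linear_combination (star x.r) * h2

set_option maxHeartbeats 4000000 in
theorem pmat_mem (ε : K) (x : PG K) : (pmat x)ᵀ * EJ ε * (pmat x).map (starRingEnd K) = EJ ε := by
  have h1 := x.ha
  have h2 := x.hc
  ext i j
  fin_cases i <;> fin_cases j <;>
    simp [pmat, EJ, Matrix.mul_apply, Fin.sum_univ_four]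
  all_goals simp only [starRingEnd_apply, star_star]
  all_goals first
    | ring1
    | linear_combination (-ε) * h2
    | linear_combination (-ε) * h1 - ε * x.r * star x.r * h2
    | linear_combination (ε * star x.r) * h2
    | linear_combination (ε * x.r) * h2
    | (rw [h1, h2]; ring1)

theorem pmat_inj {x y : PG K} (h : pmat x = pmat y) : x = y := by
  have h01 := congrFun (congrFun h 0) 1
  have h02 := congrFun (congrFun h 0) 2
  have h03 := congrFun (congrFun h 0) 3
  have h13 := congrFun (congrFun h 1) 3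
  simp [pmat] at h01 h02 h03 h13
  rw [h01, h03, sub_left_inj] at h02
  exact PG.ext h01 h02 h03 h13

theorem pmat_one : pmat (1 : PG K) = 1 := by
  ext i j
  fin_cases i <;> fin_cases j <;> simp [pmat]

end mat

section
variable {K : Type u} [Field K] [StarRing K]

theorem card_PG {p n : ℕ} (h : HypK K p n) : Nat.card (PG K) = (p ^ n) ^ 6 := by
  haveI : Fintype K := @Fintype.ofFinite K h.fin
  have hF : Fintype.card K = (p ^ n) ^ 2 := by rw [← Nat.card_eq_fintype_card, h.card]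
  have e : PG K ≃ (K × K) × ({x : K // x ^ (p ^ n) = x} × {x : K // x ^ (p ^ n) = x}) :=
    { toFun := fun x => ((x.r, x.b), (⟨x.a, by rw [← h.star_eq]; exact x.ha⟩, ⟨x.c, by rw [← h.star_eq]; exact x.hc⟩))
      invFun := fun y => ⟨y.1.1, y.2.1.1, y.1.2, y.2.2.1, by rw [h.star_eq]; exact y.2.1.2, by
        rw [h.star_eq]; exact y.2.2.2⟩
      left_inv := fun x => rfl
      right_inv := fun y => rfl }
  rw [Nat.card_congr e, Nat.card_prod, Nat.card_prod, Nat.card_prod, card_fixed hF, h.card]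
  ring

theorem isPGroup_PG {p n : ℕ} (h : HypK K p n) : IsPGroup p (PG K) := by
  haveI := Fact.mk h.pp
  haveI : Finite (PG K) := Nat.finite_of_card_ne_zero (by
    rw [card_PG h]; exact pow_ne_zero _ (pow_ne_zero _ h.pp.ne_zero))
  exact IsPGroup.of_card (n := n * 6) (by rw [card_PG h, ← pow_mul])

/-- the homomorphism from the change of basis -/
theorem exists_hom {p n : ℕ} (h : HypK K p n) :
    ∃ φ : PG K →* Cfsg.SU 4 K (p ^ n), Function.Injective φ := by
  haveI : Fintype K := @Fintype.ofFinite K h.fin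
  have hF : Fintype.card K = (p ^ n) ^ 2 := by rw [← Nat.card_eq_fintype_card, h.card]
  have hs : ∀ x : K, starRingEnd K x = x ^ (p ^ n) := fun x => by rw [starRingEnd_apply, h.star_eq]
  obtain ⟨ν, hν⟩ := exists_norm_eq hF (c := (-1 : K)) (by rw [neg_pow_q hF, one_pow])
  obtain ⟨c, hc⟩ := exists_not_fixed hF
  obtain ⟨ε, hε, hε'⟩ := exists_trace_zero_ne hF
  obtain ⟨T, T', hT, hJ⟩ := exists_T (σ := starRingEnd K) (fun x => by
    rw [starRingEnd_apply, starRingEnd_apply, star_star]) (ν := ν) (c := c) (ε := ε) (by rw [hs, hν])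
    (by rw [hs]; exact hc) hε (by rw [hs]; linear_combination hε')
  have hT' : T' * T = 1 := mul_eq_one_comm.mp hT
  have hdet : ∀ x : PG K, (T * pmat x * T').det = 1 := by
    intro x
    rw [Matrix.det_mul, Matrix.det_mul, det_pmat, mul_one, ← Matrix.det_mul, hT, Matrix.det_one]
  have hmem : ∀ x : PG K, (⟨T * pmat x * T', hdet x⟩ : SpecialLinearGroup (Fin 4) K) ∈ Cfsg.SU 4 K (p ^ n) := by
    intro x
    refine (mem_SU_iff' hs _).2 ?_
    change (T * pmat x * T')ᵀ * (T * pmat x * T').map (starRingEnd K) = 1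
    simp only [Matrix.transpose_mul, Matrix.map_mul]
    calc T'ᵀ * ((pmat x)ᵀ * Tᵀ) * (T.map (starRingEnd K) * (pmat x).map (starRingEnd K) *
          T'.map (starRingEnd K))
        = T'ᵀ * ((pmat x)ᵀ * (Tᵀ * T.map (starRingEnd K)) * (pmat x).map (starRingEnd K)) *
          T'.map (starRingEnd K) := by simp only [Matrix.mul_assoc]
      _ = T'ᵀ * (Tᵀ * T.map (starRingEnd K)) * T'.map (starRingEnd K) := by rw [hJ, pmat_mem]
      _ = (T * T')ᵀ * (T * T').map (starRingEnd K) := by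
          simp only [Matrix.transpose_mul, Matrix.map_mul, Matrix.mul_assoc]
      _ = 1 := by rw [hT, Matrix.transpose_one, Matrix.one_mul,
          Matrix.map_one _ (map_zero _) (map_one _)]
  let φ : PG K →* Cfsg.SU 4 K (p ^ n) :=
    { toFun := fun x => ⟨⟨T * pmat x * T', hdet x⟩, hmem x⟩
      map_one' := by
        apply Subtype.ext
        apply Subtype.ext
        change T * pmat 1 * T' = 1
        rw [pmat_one, Matrix.mul_one, hT]
      map_mul' := by
        intro x y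
        apply Subtype.ext
        apply Subtype.ext
        change T * pmat (x * y) * T' = (T * pmat x * T') * (T * pmat y * T')
        calc T * pmat (x * y) * T' = T * pmat x * 1 * pmat y * T' := by
              rw [← pmat_mul, Matrix.mul_one]; simp only [Matrix.mul_assoc]
          _ = (T * pmat x * T') * (T * pmat y * T') := by rw [← hT']; simp only [Matrix.mul_assoc] }
  refine ⟨φ, fun x y hxy => ?_⟩
  have h1 : T * pmat x * T' = T * pmat y * T' := congrArg (fun g : Cfsg.SU 4 K (p ^ n) => g.1.1) hxy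
  apply pmat_inj
  calc pmat x = (T' * T) * pmat x * (T' * T) := by rw [hT', Matrix.one_mul, Matrix.mul_one]
    _ = T' * (T * pmat x * T') * T := by simp only [Matrix.mul_assoc]
    _ = T' * (T * pmat y * T') * T := by rw [h1]
    _ = (T' * T) * pmat y * (T' * T) := by simp only [Matrix.mul_assoc]
    _ = pmat y := by rw [hT', Matrix.one_mul, Matrix.mul_one]

theorem prod_eq' (q : ℕ) : ∏ i ∈ Finset.range 4, (if Even i then q ^ (i + 1) + 1 else q ^ (i + 1) - 1) =
    (q + 1) * (q ^ 2 - 1) * (q ^ 3 + 1) * (q ^ 4 - 1) := by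
  have e0 : Even 0 := by decide
  have e1 : ¬ Even 1 := by decide
  have e2 : Even 2 := by decide
  have e3 : ¬ Even 3 := by decide
  simp only [Finset.prod_range_succ, Finset.prod_range_zero, if_pos e0, if_neg e1, if_pos e2, if_neg e3]
  norm_num

theorem card_center' {F : Type u} [Field F] [Fintype F] {q : ℕ} (hF : Fintype.card F = q ^ 2) :
    Nat.card (Subgroup.center (Cfsg.SU 4 F q)) = Nat.gcd 4 (q + 1) := by
  classical
  have h1 := Cfsg.Agent.S0278.result hF 4 (by norm_num)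
  have h2 := Cfsg.Agent.S0280.result hF 4 (by norm_num)
  have h3 : Nat.card (Cfsg.SU 4 F q) = Nat.card (Cfsg.PSU 4 F q) * Nat.card (Subgroup.center (Cfsg.SU 4 F q)) :=
    Subgroup.card_eq_card_quotient_mul_card_subgroup _
  have hpos : 0 < Nat.card (Cfsg.PSU 4 F q) := Nat.card_pos
  have h4 : (q + 1) * Nat.card (Cfsg.PSU 4 F q) * Nat.card (Subgroup.center (Cfsg.SU 4 F q)) =
      (q + 1) * Nat.card (Cfsg.PSU 4 F q) * Nat.gcd 4 (q + 1) := by
    rw [← h2, h3] at h1
    linarith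
  exact Nat.eq_of_mul_eq_mul_left (by positivity) h4

/-- the embedding in `PSU` -/
theorem exists_hom_psu' {p n : ℕ} (h : HypK K p n) :
    ∃ φ : PG K →* Cfsg.PSU 4 K (p ^ n), Function.Injective φ := by
  haveI : Fintype K := @Fintype.ofFinite K h.fin
  have hF : Fintype.card K = (p ^ n) ^ 2 := by rw [← Nat.card_eq_fintype_card, h.card]
  obtain ⟨φ, hφ⟩ := exists_hom h
  refine ⟨(QuotientGroup.mk' (Subgroup.center (Cfsg.SU 4 K (p ^ n)))).comp φ, ?_⟩
  rw [injective_iff_map_eq_one]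
  intro x hx
  have hx1 : φ x ∈ Subgroup.center (Cfsg.SU 4 K (p ^ n)) := (QuotientGroup.eq_one_iff _).1 hx
  obtain ⟨k, hk⟩ := isPGroup_PG h x
  have h1 : orderOf (φ x) ∣ p ^ k := orderOf_dvd_of_pow_eq_one (by rw [← map_pow, hk, map_one])
  have h2 : orderOf (φ x) ∣ p ^ n + 1 := by
    refine dvd_trans ?_ (Nat.gcd_dvd_right 4 (p ^ n + 1))
    rw [← card_center' hF, ← Subgroup.orderOf_mk (φ x) hx1]
    exact orderOf_dvd_natCard _
  have h3 : Nat.Coprime (p ^ k) (p ^ n + 1) := by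
    apply Nat.Coprime.pow_left
    rw [Nat.Prime.coprime_iff_not_dvd h.pp]
    intro hd
    have h4 : p ∣ 1 := (Nat.dvd_add_right (dvd_pow_self p (by have := h.hn; omega))).1 hd
    exact h.pp.one_lt.ne' (Nat.dvd_one.1 h4)
  have h5 : orderOf (φ x) = 1 := Nat.eq_one_of_dvd_coprimes h3 h1 h2
  rw [orderOf_eq_one_iff] at h5
  exact hφ (h5.trans (map_one φ).symm)

theorem arith' {p q m : ℕ} (hp : p.Prime) (hpq : p ∣ q) (hq0 : 0 < q)
    (h2 : Nat.gcd 4 (q + 1) * ((q + 1) * (q ^ 6 * m)) =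
      q ^ (4 * (4 - 1) / 2) * ((q + 1) * (q ^ 2 - 1) * (q ^ 3 + 1) * (q ^ 4 - 1))) : ¬ p ∣ m := by
  intro hd
  have h4 : q ^ 6 * (Nat.gcd 4 (q + 1) * (q + 1) * m) =
      q ^ 6 * ((q + 1) * (q ^ 2 - 1) * (q ^ 3 + 1) * (q ^ 4 - 1)) := by
    have h3 : q ^ (4 * (4 - 1) / 2) = q ^ 6 := rfl
    rw [← h3, ← h2, h3]; ring
  have h5 := Nat.eq_of_mul_eq_mul_left (by positivity) h4
  have h6 : p ∣ (q + 1) * (q ^ 2 - 1) * (q ^ 3 + 1) * (q ^ 4 - 1) := by
    rw [← h5]; exact dvd_mul_of_dvd_right hd _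
  have ha : ∀ j, 0 < j → ¬ p ∣ q ^ j + 1 := by
    intro j hj hd'
    have : p ∣ 1 := (Nat.dvd_add_right (dvd_pow hpq hj.ne')).1 hd'
    exact hp.one_lt.ne' (Nat.dvd_one.1 this)
  have hb : ∀ j, 0 < j → ¬ p ∣ q ^ j - 1 := by
    intro j hj hd'
    have h7 : q ^ j = q ^ j - 1 + 1 := (Nat.sub_add_cancel (Nat.one_le_pow _ _ hq0)).symm
    have h8 : p ∣ q ^ j - 1 + 1 := by rw [← h7]; exact dvd_pow hpq hj.ne'
    have : p ∣ 1 := (Nat.dvd_add_right hd').1 h8
    exact hp.one_lt.ne' (Nat.dvd_one.1 this)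
  rw [hp.dvd_mul, hp.dvd_mul, hp.dvd_mul] at h6
  have ha1 := ha 1 one_pos
  rw [pow_one] at ha1
  rcases h6 with ((h6 | h6) | h6) | h6
  · exact ha1 h6
  · exact hb 2 (by norm_num) h6
  · exact ha 3 (by norm_num) h6
  · exact hb 4 (by norm_num) h6

/-- (P4-SYL) -/
theorem stSyl : StSyl.{u} := by
  intro K _ _ p n _ h T
  haveI : Fintype K := @Fintype.ofFinite K h.fin
  have hF : Fintype.card K = (p ^ n) ^ 2 := by rw [← Nat.card_eq_fintype_card, h.card]
  classical
  obtain ⟨φ, hφ⟩ := exists_hom_psu' h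
  have hp := h.pp
  have hn := h.hn
  have hPp : IsPGroup p φ.range := (isPGroup_PG h).of_equiv (MonoidHom.ofInjective hφ)
  have hcard : Nat.card φ.range = (p ^ n) ^ 6 := by
    rw [← card_PG h]; exact (Nat.card_congr (MonoidHom.ofInjective hφ).toEquiv).symm
  have hidx : ¬ p ∣ φ.range.index := by
    have h2 := Cfsg.Agent.S0280.result hF 4 (by norm_num)
    rw [prod_eq'] at h2
    have h3 := φ.range.card_mul_index
    rw [hcard] at h3
    rw [← h3] at h2
    exact arith' hp (dvd_pow_self p (by omega)) (pow_pos hp.pos n) h2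
  let P : Sylow p (Cfsg.PSU 4 K (p ^ n)) := hPp.toSylow hidx
  exact ⟨(Sylow.equiv T P).trans (MonoidHom.ofInjective hφ).symm⟩

end

end Cfsg.Agent.H587.P4
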